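import Cfsg.Agent.H672.OZ.Full

/-!
# One vanishing class: the sieve of the degrees for the large groups (helper849, S4842)

`mem_of_fast` : like `H672.OZ.mem_of_sieve`, but the products are visited recursively (never more than the square root of
`N / c0`), and a full prime power is only tried when `r ^ n ∣ 1 + N / r ^ n`; an arbitrary Boolean condition `P` may be added.
The recursion is that of `H635/SporFast.lean`.
-/

set_option autoImplicit false

open Cfsg Cfsg.Agent.Characters Cfsg.Agent.H732.VZ Cfsg.Agent.H604.OZ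

namespace Cfsg.Agent.H849.OZ.Sieve

universe u

/-- evaluate the argument before going on -/
def force {α : Type} (n : ℕ) (k : ℕ → α) : α :=
  Nat.rec (motive := fun _ => α) (k 0) (fun m _ => k (Nat.succ m)) n

theorem force_eq {α : Type} (n : ℕ) (k : ℕ → α) : force n k = k n := by
  cases n <;> rfl

/-- `g` at `acc * q ^ i` for all `i ≤ a` with `(acc * q ^ i) ^ 2 < N` -/
def pw (N q : ℕ) (g : ℕ → Bool) : ℕ → ℕ → Bool
  | 0, acc => g acc
  | a + 1, acc => g acc && force (Nat.mul acc q) fun acc' => Nat.ble N (Nat.mul acc' acc') || pw N q g a acc'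

theorem pw_sound {N q : ℕ} (hq : 0 < q) {g : ℕ → Bool} : ∀ {a acc : ℕ}, pw N q g a acc = true → ∀ i ≤ a,
    acc * q ^ i * (acc * q ^ i) < N → g (acc * q ^ i) = true
  | 0, acc, h, i, hi, _ => by
    obtain rfl : i = 0 := by omega
    simpa [pw] using h
  | a + 1, acc, h, i, hi, hlt => by
    rw [pw, Bool.and_eq_true, force_eq] at h
    rcases i with _ | i
    · simpa using h.1
    · have e : acc * q ^ (i + 1) = acc * q * q ^ i := by ring
      rw [e] at hlt ⊢
      have h2 := h.2
      rw [Bool.or_eq_true] at h2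
      rcases h2 with h3 | h3
      · exfalso
        have h4 : N ≤ acc * q * (acc * q) := Nat.le_of_ble_eq_true h3
        have h5 : 1 ≤ q ^ i := Nat.one_le_pow _ _ hq
        have h6 : acc * q ≤ acc * q * q ^ i := Nat.le_mul_of_pos_right _ h5
        have h7 := Nat.mul_le_mul h6 h6
        omega
      · exact pw_sound hq h3 i (by omega) hlt

/-- `f` at all products -/
def allF (N : ℕ) (f : ℕ → Bool) : List (ℕ × ℕ) → ℕ → Bool
  | [], acc => f acc
  | x :: L, acc => pw N x.1 (allF N f L) x.2 acc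

theorem allF_sound {N : ℕ} {f : ℕ → Bool} : ∀ (L : List (ℕ × ℕ)) (acc d : ℕ), (∀ x ∈ L, x.1.Prime) → d ≠ 0 →
    (∀ r : ℕ, r.Prime → r ∣ d → r ∈ L.map Prod.fst) → (∀ x ∈ L, ¬ x.1 ^ (x.2 + 1) ∣ d) → allF N f L acc = true →
    acc * d * (acc * d) < N → f (acc * d) = true
  | [], acc, d, _, hd, h, _, hc, _ => by
    have : d = 1 := by
      by_contra hne
      obtain ⟨r, hr, hrd⟩ := Nat.exists_prime_and_dvd hne
      simpa using h r hr hrd
    rw [this, mul_one]
    exact hc
  | x :: L, acc, d, hL, hd, h, h', hc, hlt => by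
    have hx := hL x List.mem_cons_self
    obtain ⟨i, m, hm, him⟩ := Nat.exists_eq_pow_mul_and_not_dvd (Nat.pos_of_ne_zero hd |> fun h => h.ne') x.1
      hx.one_lt.ne'
    have hm0 : 1 ≤ m := Nat.pos_of_ne_zero (by rintro rfl; exact hm (dvd_zero _))
    have hi : i ≤ x.2 := by
      by_contra hcon
      push Not at hcon
      apply h' x List.mem_cons_self
      rw [him]
      exact (pow_dvd_pow _ hcon).trans (dvd_mul_right _ _)
    have hmd : m ∣ d := him ▸ dvd_mul_left _ _
    have e : acc * d = acc * x.1 ^ i * m := by rw [him, mul_assoc]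
    have hle : acc * x.1 ^ i ≤ acc * x.1 ^ i * m := Nat.le_mul_of_pos_right _ hm0
    rw [e] at hlt ⊢
    have h1 := pw_sound hx.pos (show pw N x.1 (allF N f L) x.2 acc = true from hc) i hi
      (lt_of_le_of_lt (Nat.mul_le_mul hle hle) hlt)
    exact allF_sound L (acc * x.1 ^ i) m (fun y hy => hL y (List.mem_cons_of_mem _ hy))
      (by rintro rfl; exact hm (dvd_zero _)) (fun r hr hrm => by
        have := h r hr (hrm.trans hmd)
        rw [List.map_cons, List.mem_cons] at this
        rcases this with h3 | h3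
        · exact absurd (h3 ▸ hrm) hm
        · exact h3) (fun y hy hyd => h' y (List.mem_cons_of_mem _ hy) (hyd.trans hmd)) h1 hlt

/-- the exponents of a degree: one less than in the group order unless `r ^ n ∣ 1 + N / r ^ n` -/
def red (N : ℕ) (l : List (ℕ × ℕ)) : List (ℕ × ℕ) :=
  l.map fun y => if (1 + N / y.1 ^ y.2) % y.1 ^ y.2 = 0 then y else (y.1, y.2 - 1)

/-- **The sieve for the large groups.**  `l` is the factorization of `N = |G|`, `L = red N l`, `c0 ≤ |C(x)|`, `iso` a list of
primes modulo which the degree is `0, 1` or `-1`, `P` a further condition on the degree: the degree is in `D`. -/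
theorem mem_of_fast {G : Type u} [Group G] [Finite G] {χ : IrrCharacter G} {x : G} (h : One χ x) {N c0 : ℕ}
    (hN : Nat.card G = N) {l L : List (ℕ × ℕ)} (hl : Cfsg.Agent.H417.Divs.val l = N)
    (hp : ∀ y ∈ l, y.1.Prime) (he : ∀ y ∈ l, y.2 ≠ 0 ∧ ¬ y.1 ^ (y.2 + 1) ∣ N) (hL : red N l = L) (hc0 : 0 < c0)
    (hc : c0 ≤ cent x) {iso : List ℕ}
    (hiso : ∀ r ∈ iso, charDegree (χ : G → ℂ) % r = 0 ∨ charDegree (χ : G → ℂ) % r = 1 ∨
      charDegree (χ : G → ℂ) % r = r - 1) {P : ℕ → Bool} (hP : P (charDegree (χ : G → ℂ)) = true) {M : ℕ}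
    (hM : N / c0 + 2 ≤ M) {D : List ℕ}
    (hD : allF M (fun d => !(H672.OZ.okd N c0 l iso d) || (!(P d) || D.contains d)) L 1 = true) :
    charDegree (χ : G → ℂ) ∈ D := by
  subst hL
  set d := charDegree (χ : G → ℂ) with hdd
  have hdN : d ∣ N := by rw [← hN]; exact deg_dvd χ
  have hd0 : d ≠ 0 := by have := one_lt_deg h; omega
  have h1 := allF_sound (N := M) (f := fun d => !(H672.OZ.okd N c0 l iso d) || (!(P d) || D.contains d))
    (red N l) 1 d ?_ hd0 ?_ ?_ hD ?_
  · rw [one_mul] at h1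
    rw [H672.OZ.okd_of h hN hl hp he hc hiso, hP, Bool.not_true, Bool.false_or, Bool.false_or, List.contains_iff_mem] at h1
    exact h1
  · intro x hx
    obtain ⟨y, hy, rfl⟩ := List.mem_map.1 hx
    split_ifs
    · exact hp y hy
    · exact hp y hy
  · intro r hr hrd
    have h2 : r ∣ Cfsg.Agent.H417.Divs.val l := by rw [hl]; exact hrd.trans hdN
    rw [Cfsg.Agent.H417.Divs.val] at h2
    obtain ⟨z, hz, hrz⟩ := (Prime.dvd_prod_iff hr.prime).1 h2
    obtain ⟨y, hy, rfl⟩ := List.mem_map.1 hz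
    have h3 : r = y.1 := (Nat.prime_dvd_prime_iff_eq hr (hp y hy)).1 (hr.dvd_of_dvd_pow hrz)
    rw [h3, red, List.map_map]
    refine List.mem_map.2 ⟨y, hy, ?_⟩
    simp only [Function.comp_apply]
    split_ifs <;> rfl
  · intro x hx
    obtain ⟨y, hy, rfl⟩ := List.mem_map.1 hx
    split_ifs with h3
    · exact fun h4 => (he y hy).2 (h4.trans hdN)
    · have h4 : y.2 - 1 + 1 = y.2 := Nat.sub_add_cancel (Nat.pos_of_ne_zero (he y hy).1)
      simp only [h4]
      refine H672.OZ.not_full h (hp y hy) (he y hy).1 ?_ (by rw [hN]; exact (he y hy).2) (by rw [hN]; exact h3)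
      rw [hN, ← hl, Cfsg.Agent.H417.Divs.val]
      exact List.dvd_prod (List.mem_map.2 ⟨y, hy, rfl⟩)
  · rw [one_mul]
    have h2 := cent_mul_sq_le h
    rw [hN, pow_two] at h2
    obtain ⟨k, hk⟩ := Nat.exists_eq_add_of_le hc
    have h3 : c0 * (d * d) ≤ N + c0 := by
      have h5 : 1 ≤ d * d := Nat.one_le_iff_ne_zero.2 (Nat.mul_ne_zero hd0 hd0)
      have h4 : k ≤ k * (d * d) := Nat.le_mul_of_pos_right k h5
      rw [hk] at h2
      nlinarith
    have h4 : d * d ≤ N / c0 + 1 := by
      have h5 : d * d ≤ (N + c0) / c0 := (Nat.le_div_iff_mul_le hc0).2 (by rw [mul_comm]; exact h3)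
      rwa [Nat.add_div_right _ hc0] at h5
    omega

end Cfsg.Agent.H849.OZ.Sieve
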